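import Mathlib
import Cfsg.Agent.Lib.Helper22.AG.Defs
import Cfsg.Agent.Lib.Helper47.PIrr

/-!
# Project AG (S3072), package [GT5]

Frattini for the minimal normal subgroup `X`: `N = O^p(X) · (N ∩ N_G(P ∩ X))`.
-/

set_option autoImplicit false

namespace Cfsg.Agent.Lib.Helper64.AG

open Cfsg Cfsg.Agent.Lib.Helper33 Cfsg.Agent.Lib.Helper22.AG

universe u

/-- A subgroup `X ≤ N` which is normal in `N` is fixed by conjugation with elements of `N`. -/
theorem gt5_cj_normal {G : Type u} [Group G] [Finite G] {N X : Subgroup G} (hXN : X ≤ N)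
    (hn : (X.subgroupOf N).Normal) {n : G} (hnN : n ∈ N) : cj n X = X := by
  have hle : cj n X ≤ X := by
    intro x hx
    rw [mem_cj] at hx
    have h1 := hn.conj_mem ⟨n⁻¹ * x * n, hXN hx⟩ (Subgroup.mem_subgroupOf.2 hx) ⟨n, hnN⟩
    rw [Subgroup.mem_subgroupOf] at h1
    have h2 : ((⟨n, hnN⟩ * ⟨n⁻¹ * x * n, hXN hx⟩ * ⟨n, hnN⟩⁻¹ : ↥N) : G) = x := by
      show n * (n⁻¹ * x * n) * n⁻¹ = x
      group
    rwa [h2] at h1
  exact eq_of_le_of_card_le hle (card_cj n X).ge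

/-- **[GT5]** Frattini for `X`. -/
theorem pkgGT5 : PkgGT5.{u} := by
  intro G _ _ p _ P U X M hP hUP hSyl hX hM hR
  obtain ⟨hUX, hXN, hXn, hpX, -⟩ := hX
  -- `D := P ⊓ X` is a Sylow `p`-subgroup of `X`
  have hD : SylIn p (P ⊓ X) X := by
    obtain ⟨T, hT, hDT⟩ := exists_sylIn_ge (p := p) (H := X) (B := P ⊓ X) inf_le_right
      (hP.to_le inf_le_left)
    obtain ⟨k, hkN, hk⟩ := hSyl.exists_cj_le (B := T) (hT.1.trans hXN) hT.2.1
    have hkX : cj k X = X := gt5_cj_normal hXN hXn hkN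
    have h1 : cj k T ≤ P ⊓ X := le_inf (hk.trans inf_le_left) ((cj_mono hT.1).trans hkX.le)
    have hDT' : P ⊓ X = T :=
      eq_of_le_of_card_le hDT (by rw [← card_cj k T]; exact Subgroup.card_le_of_le h1)
    rw [hDT']; exact hT
  have hUD : U < P ⊓ X := by
    refine lt_of_le_of_ne (le_inf hUP hUX) ?_
    intro h
    apply hD.2.2
    rw [← h]; exact hpX
  have hDM : P ⊓ X ≤ M := by
    refine le_trans ?_ (hM (P ⊓ X) hUD inf_le_left)
    exact le_inf (inf_le_right.trans hXN) Subgroup.le_normalizer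
  have hXM : X ≤ M := by
    have hT0 : IsPGroup p ((P ⊓ X).subgroupOf X) := hD.2.1.comap_subtype
    have hT : ((hT0.toSylow hD.2.2 : Sylow p ↥X) : Subgroup ↥X) = (P ⊓ X).subgroupOf X :=
      IsPGroup.toSylow_coe hT0 hD.2.2
    have h1 := Cfsg.Agent.Lib.Helper47.pResidual_sup_sylow (hT0.toSylow hD.2.2 : Sylow p ↥X)
    have h2 := congrArg (Subgroup.map X.subtype) h1
    rw [Subgroup.map_sup, hT, Subgroup.subgroupOf_map_subtype, ← MonoidHom.range_eq_map,
      Subgroup.range_subtype] at h2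
    rw [← h2]
    exact sup_le hR (inf_le_left.trans hDM)
  intro n hn
  have hcn : cj n (P ⊓ X) ≤ X := by
    have h1 := gt5_cj_normal hXN hXn hn
    calc cj n (P ⊓ X) ≤ cj n X := cj_mono inf_le_right
      _ = X := h1
  obtain ⟨k, hkX, hk⟩ := hD.exists_cj_le (B := cj n (P ⊓ X)) hcn (isPGroup_cj hD.2.1)
  rw [← cj_mul] at hk
  have heq : cj (k * n) (P ⊓ X) = P ⊓ X := eq_of_le_of_card_le hk (card_cj _ _).ge
  have hkn : k * n ∈ Subgroup.normalizer (U : Set G) ⊓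
      Subgroup.normalizer ((P ⊓ X : Subgroup G) : Set G) :=
    ⟨mul_mem (hXN hkX) hn, mem_normalizer_iff_cj.2 heq⟩
  have h3 : k * n ∈ M := hM (P ⊓ X) hUD inf_le_left hkn
  have h4 : n = k⁻¹ * (k * n) := by group
  rw [h4]
  exact mul_mem (inv_mem (hXM hkX)) h3

end Cfsg.Agent.Lib.Helper64.AG
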