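import Mathlib
import Cfsg.Agent.Lib.Helper22.AG.Defs
import Cfsg.Agent.S3058

/-!
# Project AG (S3072), package [MINX]

Existence of the least normal subgroup of `N(U)/U` of order divisible by `p` (from S3058).
-/

set_option autoImplicit false

namespace Cfsg.Agent.Lib.Helper64.AG

open Cfsg Cfsg.Agent.Lib.Helper33 Cfsg.Agent.Lib.Helper22.AG

universe u

/-- The index of `V` in `Y` is the order of the image of `Y` in `K ⧸ V`. -/
theorem minx_relIndex_eq {K : Type u} [Group K] (V : Subgroup K) [V.Normal] (Y : Subgroup K) :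
    V.relIndex Y = Nat.card ↥(Y.map (QuotientGroup.mk' V)) := by
  have h1 := Subgroup.relIndex_comap (⊥ : Subgroup (K ⧸ V)) (QuotientGroup.mk' V) Y
  rw [MonoidHom.comap_bot, QuotientGroup.ker_mk', Subgroup.relIndex_bot_left] at h1
  exact h1

/-- The abstract form: the least normal subgroup above `V` of index divisible by `p`. -/
theorem minx_quot {K : Type u} [Group K] [Finite K] {p : ℕ} [Fact p.Prime] (V : Subgroup K)
    [V.Normal] (hcc : ¬ Cfsg.IsSylowChainConnected p (K ⧸ V)) (hp : p ∣ V.index) :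
    ∃ X : Subgroup K, V ≤ X ∧ X.Normal ∧ p ∣ V.relIndex X ∧
      ∀ Y : Subgroup K, V ≤ Y → Y.Normal → p ∣ V.relIndex Y → X ≤ Y := by
  classical
  have hfin : Fintype (Subgroup (K ⧸ V)) := Fintype.ofFinite _
  have hX : ((Finset.univ.filter
        (fun Y : Subgroup (K ⧸ V) => Y.Normal ∧ p ∣ Nat.card ↥Y)).inf id).Normal ∧
      p ∣ Nat.card ↥((Finset.univ.filter
        (fun Y : Subgroup (K ⧸ V) => Y.Normal ∧ p ∣ Nat.card ↥Y)).inf id) := by
    refine Finset.inf_induction (p := fun Y : Subgroup (K ⧸ V) => Y.Normal ∧ p ∣ Nat.card ↥Y)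
      ?_ ?_ ?_
    · refine ⟨inferInstance, ?_⟩
      rw [Subgroup.card_top, ← Subgroup.index_eq_card]; exact hp
    · rintro A ⟨hA, hpA⟩ B ⟨hB, hpB⟩
      exact ⟨inferInstance, Cfsg.Agent.S3058.result p hcc A B hpA hpB⟩
    · intro Y hY; exact (Finset.mem_filter.1 hY).2
  obtain ⟨hXn, hXp⟩ := hX
  refine ⟨((Finset.univ.filter
      (fun Y : Subgroup (K ⧸ V) => Y.Normal ∧ p ∣ Nat.card ↥Y)).inf id).comap
        (QuotientGroup.mk' V), ?_, hXn.comap _, ?_, ?_⟩
  · intro v hv
    rw [Subgroup.mem_comap]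
    have h1 : QuotientGroup.mk' V v = 1 := (QuotientGroup.eq_one_iff v).2 hv
    rw [h1]
    exact one_mem _
  · rw [minx_relIndex_eq,
      Subgroup.map_comap_eq_self_of_surjective (QuotientGroup.mk'_surjective V)]
    exact hXp
  · intro Y hVY hYn hpY
    have hmem : Y.map (QuotientGroup.mk' V) ∈ Finset.univ.filter
        (fun Y : Subgroup (K ⧸ V) => Y.Normal ∧ p ∣ Nat.card ↥Y) := by
      rw [Finset.mem_filter]
      refine ⟨Finset.mem_univ _, hYn.map _ (QuotientGroup.mk'_surjective V), ?_⟩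
      rw [← minx_relIndex_eq]; exact hpY
    have hle : (Finset.univ.filter
        (fun Y : Subgroup (K ⧸ V) => Y.Normal ∧ p ∣ Nat.card ↥Y)).inf id ≤
          Y.map (QuotientGroup.mk' V) := Finset.inf_le hmem
    have h2 := Subgroup.comap_mono (f := QuotientGroup.mk' V) hle
    rw [Subgroup.comap_map_eq, QuotientGroup.ker_mk', sup_of_le_left hVY] at h2
    exact h2

/-- **[MINX]** existence of the least normal subgroup of order divisible by `p`. -/
theorem pkgMinX : PkgMinX.{u} := by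
  intro G _ _ p _ P U hP hUP hcc
  have hUN : U ≤ Subgroup.normalizer (U : Set G) := Subgroup.le_normalizer
  -- `p` divides `|N : U|`
  have hpN : p ∣ (U.subgroupOf (Subgroup.normalizer (U : Set G))).index := by
    obtain ⟨x, hx, hxU⟩ := exists_mem_normalizer_not_mem hP hUP.le hUP.ne
    have hQ : IsPGroup p ↥(P ⊓ Subgroup.normalizer (U : Set G)) := hP.to_le inf_le_left
    have h1 := Subgroup.relIndex_mul_relIndex U (P ⊓ Subgroup.normalizer (U : Set G))
      (Subgroup.normalizer (U : Set G)) (le_inf hUP.le hUN) inf_le_right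
    obtain ⟨n, hn⟩ := IsPGroup.index hQ (U.subgroupOf (P ⊓ Subgroup.normalizer (U : Set G)))
    have h3 : U.relIndex (P ⊓ Subgroup.normalizer (U : Set G)) = p ^ n := hn
    have hn0 : n ≠ 0 := by
      intro h0
      rw [h0, pow_zero] at h3
      exact hxU (Subgroup.relIndex_eq_one.1 h3 hx)
    show p ∣ U.relIndex (Subgroup.normalizer (U : Set G))
    rw [← h1, h3]
    exact Dvd.dvd.mul_right (dvd_pow_self p hn0) _
  obtain ⟨X₁, hVX, hXn, hpX, hmin⟩ :=
    minx_quot (p := p) (U.subgroupOf (Subgroup.normalizer (U : Set G))) hcc hpN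
  have hXle : X₁.map (Subgroup.normalizer (U : Set G)).subtype ≤ Subgroup.normalizer (U : Set G) :=
    Subgroup.map_subtype_le _
  have hXsub : (X₁.map (Subgroup.normalizer (U : Set G)).subtype).subgroupOf
      (Subgroup.normalizer (U : Set G)) = X₁ :=
    Subgroup.comap_map_eq_self_of_injective (Subgroup.subtype_injective _) X₁
  refine ⟨X₁.map (Subgroup.normalizer (U : Set G)).subtype, ?_, hXle, ?_, ?_, ?_⟩
  · intro u hu
    exact ⟨⟨u, hUN hu⟩, hVX (Subgroup.mem_subgroupOf.2 hu), rfl⟩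
  · rw [hXsub]; exact hXn
  · rw [← Subgroup.relIndex_subgroupOf hXle, hXsub]; exact hpX
  · intro Y hUY hYN hYn hpY
    have h1 : X₁ ≤ Y.subgroupOf (Subgroup.normalizer (U : Set G)) := by
      apply hmin _ _ hYn
      · rw [Subgroup.relIndex_subgroupOf hYN]; exact hpY
      · intro u hu
        exact Subgroup.mem_subgroupOf.2 (hUY (Subgroup.mem_subgroupOf.1 hu))
    rintro _ ⟨x, hx, rfl⟩
    exact Subgroup.mem_subgroupOf.1 (h1 hx)

end Cfsg.Agent.Lib.Helper64.AG
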